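import Cfsg.Agent.H967.Sph.Count
import Cfsg.Agent.H996.Eight.Cert
import Cfsg.Agent.H632.PQ.Mackey

/-!
# Values of induced linear characters at central elements of the Levi subgroup (helper526, for S4612)

`P = P_j` maximal parabolic, `V` its unipotent radical, `θ` a function on `P`, `z ∈ T` central in `L`, `C_V(z) = 1`:
`∑_g θ(g z g⁻¹)` (over the `g` with `g z g⁻¹ ∈ P`) in terms of the double cosets.
-/

set_option autoImplicit false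
set_option linter.unusedSectionVars false
set_option quotPrecheck false

namespace Cfsg.Agent.H526.PQ

open Cfsg Cfsg.Agent.H967.Sph Cfsg.Agent.H996.Eight.Cert Cfsg.Agent.H64.Dl.Sph
open CoxeterSystem Cfsg.Agent.ChevalleyStructure.CoxeterGeom Cfsg.Agent.Tits.Roots Cfsg.Agent.Tits.Core
  Cfsg.Agent.Tits.Exchange Cfsg.Agent.Nodes.Reps Cfsg.Agent.Nodes.BNOf Cfsg.Agent.Nodes.StabComb Cfsg.Agent.Nodes.Bruhat
  Cfsg.Agent.Nodes.OppDec Cfsg.Agent.Nodes.LeviDec Cfsg.Agent.H632.PQ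

variable {I W Y : Type*} [Fintype I] [DecidableEq I] [Group W] [Finite W] [Group Y]
    {M : CoxeterMatrix I} {cs : CoxeterSystem M W} {A : I → I → ℤ} {h : IsCartan M A} {r : ℕ} {T : Subgroup Y}
    {n : I → Y} {X : (I → ℤ) → Subgroup Y} (R : RGD cs h r T n X) (hG : GG cs h T X = ⊤)
    {j : I} {N m : ℕ} (t : Tab A j N m)

section geom

/-- the root groups with nonnegative `j`-th coordinate -/
theorem X_le_PJ {x : I → ℤ} (hx : IsRoot cs h x) (h0 : 0 ≤ x j) : X x ≤ PJ cs h T X {i | i ≠ j} := by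
  rcases h0.eq_or_lt with h1 | h1
  · refine (X_le_LJ ⟨hx, fun k hk => ?_⟩).trans LJ_le_PJ
    have hkj : k = j := by simpa using hk
    rw [hkj, h1]
  · have h2 : x ∈ NotJ cs h {i | i ≠ j} := ⟨hx, nonneg_of_pos_apply hx h1, j, by simp, h1⟩
    exact (RGD.le_Sup h2).trans VJ_le_PJ

include R in
theorem conj_UJ {w : W} {k : Y} (hk : Rp cs R.nsys w k) (h0 : ∀ i, i ≠ j → 0 ≤ lam cs h j w i) {a : Y}
    (ha : a ∈ UJ cs h X {i | i ≠ j}) : k * a * k⁻¹ ∈ PJ cs h T X {i | i ≠ j} := by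
  have h1 : UJ cs h X {i | i ≠ j} ≤ cj k⁻¹ (PJ cs h T X {i | i ≠ j}) := by
    refine RGD.Sup_le fun x hx b hb => ?_
    rw [mem_cj, inv_inv]
    refine X_le_PJ (T := T) (hx.1.act w) ?_ (R.conj_mem hk hx.1 hb)
    have h2 : rep cs h w x j = ∑ i, x i * lam cs h j w i := by
      conv_lhs => rw [eq_sum_sr x]
      rw [map_sum, Finset.sum_apply]
      refine Finset.sum_congr rfl fun i _ => ?_
      rw [map_smul, Pi.smul_apply, smul_eq_mul]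
      rfl
    rw [h2]
    refine Finset.sum_nonneg fun i _ => ?_
    by_cases hi : i = j
    · subst hi
      rw [hx.2.2 i (by simp), zero_mul]
    · exact mul_nonneg (hx.2.1 i) (h0 i hi)
  have h2 := h1 ha
  rwa [mem_cj, inv_inv] at h2

include R in
/-- the elements of a minimal state -/
theorem exists_PkV {w : W} {k : Y} (hk : Rp cs R.nsys w k) (h0 : ∀ i, i ≠ j → 0 ≤ lam cs h j w i) {g : Y}
    (hg : stY R hG t g = t.sw cs h w) :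
    ∃ p ∈ PJ cs h T X {i | i ≠ j}, ∃ v ∈ VJ cs h X {i | i ≠ j}, g = p * k * v := by
  obtain ⟨b₁, hb₁, k', hk', b₂, hb₂, e⟩ := cell_wOf R hG g
  rw [stY] at hg
  have h1 := t.mem_WJ_of_sw cs h hg.symm
  have h2 : k' * k⁻¹ ∈ PJ cs h T X {i | i ≠ j} := LJ_le_PJ (rp_mem_LJ R h1 (hk'.mul hk.inv))
  obtain ⟨s, hs, u, hu, rfl⟩ := R.mem_B.1 hb₂
  obtain ⟨a, ha, v, hv, rfl⟩ := (mem_U_iff R).1 hu
  have h3 : k * s * k⁻¹ ∈ PJ cs h T X {i | i ≠ j} :=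
    T_le_PJ R _ ((Subgroup.mem_normalizer_iff.1 hk.mem_normalizer s).1 hs)
  refine ⟨b₁ * (k' * k⁻¹) * (k * s * k⁻¹) * (k * a * k⁻¹), ?_, v, hv, ?_⟩
  · exact mul_mem (mul_mem (mul_mem (B_le_PJ hb₁) h2) h3) (conj_UJ R hk h0 ha)
  · rw [e]; group

theorem stY_PkV {w : W} {k : Y} (hk : Rp cs R.nsys w k) {p v : Y} (hp : p ∈ PJ cs h T X {i | i ≠ j})
    (hv : v ∈ VJ cs h X {i | i ≠ j}) : stY R hG t (p * k * v) = t.sw cs h w := by
  rw [stY_mul_right_B R hG t _ (VJ_le_B _ hv), stY_mul_left R hG t hp, stY_eq R hG t (cell_of_rp hk)]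

/-- every element of the class of `w` is in `P k L V` -/
theorem exists_PkLV {w : W} {k : Y} (hk : Rp cs R.nsys w k) {g : Y}
    (hg : t.cls (stY R hG t g) = t.cls (t.sw cs h w)) :
    ∃ p ∈ PJ cs h T X {i | i ≠ j}, ∃ l ∈ LJ cs h T X {i | i ≠ j}, ∃ v ∈ VJ cs h X {i | i ≠ j}, g = p * k * l * v := by
  obtain ⟨b₁, hb₁, k', hk', b₂, hb₂, e⟩ := cell_wOf R hG g
  -- two words through the representative of the class
  have hc : ∀ w' : W, t.cls (t.sw cs h w') = t.cls (t.sw cs h w) → ∃ a ∈ WJ cs {i | i ≠ j}, ∃ b ∈ WJ cs {i | i ≠ j},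
      w' = a * w * b := by
    intro w' hw'
    obtain ⟨w₀, hw₀⟩ := t.exists_sw cs h (t.crep (t.cls (t.sw cs h w)))
    obtain ⟨v, hv, u, hu, e1⟩ := Tab.exists_word cs h t hw₀ (w' := w') hw'
    obtain ⟨v', hv', u', hu', e2⟩ := Tab.exists_word cs h t hw₀ (w' := w) rfl
    refine ⟨u * u'⁻¹, mul_mem hu (inv_mem hu'), v'⁻¹ * v, mul_mem (inv_mem hv') hv, ?_⟩
    rw [e1, e2]; group
  rw [stY] at hg
  obtain ⟨a, ha, b, hb, e1⟩ := hc _ hg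
  obtain ⟨ka, hka⟩ := exists_rp cs R.nsys a
  obtain ⟨kb, hkb⟩ := exists_rp cs R.nsys b
  have h2 : (ka * k * kb)⁻¹ * k' ∈ T := by
    refine ((hka.mul hk).mul hkb).unique ?_
    rw [← e1]
    exact hk'
  have h3 : kb * ((ka * k * kb)⁻¹ * k') * b₂ ∈ PJ cs h T X {i | i ≠ j} :=
    mul_mem (mul_mem (LJ_le_PJ (rp_mem_LJ R hb hkb)) (T_le_PJ R _ h2)) (B_le_PJ hb₂)
  obtain ⟨l, hl, v, hv, e2⟩ := (mem_PJ R).1 h3
  refine ⟨b₁ * ka, mul_mem (B_le_PJ hb₁) (LJ_le_PJ (rp_mem_LJ R ha hka)), l, hl, v, hv, ?_⟩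
  have e3 : b₁ * ka * k * l * v = b₁ * ka * k * (l * v) := by group
  rw [e, e3, ← e2]
  group

end geom

section count

variable [Fintype Y]

open Classical in
/-- the number of `v ∈ V` with `k v k⁻¹ ∈ P` -/
noncomputable def vk (cs : CoxeterSystem M W) (h : IsCartan M A) (T : Subgroup Y) (X : (I → ℤ) → Subgroup Y) (j : I)
    (k : Y) : ℚ :=
  ∑ v : VJ cs h X {i | i ≠ j}, if k * v * k⁻¹ ∈ PJ cs h T X {i | i ≠ j} then (1 : ℚ) else 0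

/-- the number of elements of a minimal state -/
theorem cnt_mul_vk {w : W} {k : Y} (hk : Rp cs R.nsys w k) (h0 : ∀ i, i ≠ j → 0 ≤ lam cs h j w i) :
    cnt R hG t (t.sw cs h w) * vk cs h T X j k =
      Nat.card (VJ cs h X {i | i ≠ j}) * Nat.card (PJ cs h T X {i | i ≠ j}) := by
  classical
  set V := VJ cs h X {i | i ≠ j} with hV
  set P := PJ cs h T X {i | i ≠ j} with hP
  have hVP : V ≤ P := VJ_le_PJ
  -- count the pairs `(g, v)` with `g v⁻¹ k⁻¹ ∈ P`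
  have h1 : ∀ g : Y, (∑ v : V, if g * (v : Y)⁻¹ * k⁻¹ ∈ P then (1 : ℚ) else 0) =
      (Pi.single (t.sw cs h w) (1 : ℚ) : Fin N → ℚ) (stY R hG t g) * vk cs h T X j k := by
    intro g
    by_cases hg : stY R hG t g = t.sw cs h w
    · rw [hg, Pi.single_eq_same, one_mul, vk]
      obtain ⟨p, hp, v₀, hv₀, rfl⟩ := exists_PkV R hG t hk h0 hg
      refine Fintype.sum_equiv ((Equiv.inv V).trans (Equiv.mulLeft ⟨v₀, hv₀⟩)) _ _ fun v => ?_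
      have e : p * k * v₀ * (v : Y)⁻¹ * k⁻¹ = p * (k * (v₀ * (v : Y)⁻¹) * k⁻¹) := by group
      rw [e]
      have h2 : p * (k * (v₀ * (v : Y)⁻¹) * k⁻¹) ∈ P ↔ k * (v₀ * (v : Y)⁻¹) * k⁻¹ ∈ P :=
        Subgroup.mul_mem_cancel_left P hp
      simp only [h2]
      rfl
    · rw [Pi.single_eq_of_ne hg, zero_mul]
      refine Finset.sum_eq_zero fun v _ => ?_
      rw [if_neg]
      intro h2
      apply hg
      have e : g = (g * (v : Y)⁻¹ * k⁻¹) * k * v := by group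
      rw [e]
      exact stY_PkV R hG t hk h2 v.2
  have h2 : ∀ v : V, (∑ g : Y, if g * (v : Y)⁻¹ * k⁻¹ ∈ P then (1 : ℚ) else 0) = Nat.card P := by
    intro v
    have e1 : (∑ g : Y, if g * (v : Y)⁻¹ * k⁻¹ ∈ P then (1 : ℚ) else 0) = ∑ g : Y, if g ∈ P then (1 : ℚ) else 0 := by
      refine Fintype.sum_equiv (Equiv.mulRight ((v : Y)⁻¹ * k⁻¹)) _ _ fun g => ?_
      rw [Equiv.coe_mulRight, mul_assoc]
    rw [e1, Finset.sum_boole, Nat.card_eq_fintype_card, Fintype.card_subtype]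
  rw [cnt, Finset.sum_mul, Finset.sum_congr rfl fun g _ => (h1 g).symm, Finset.sum_comm,
    Finset.sum_congr rfl fun v _ => h2 v, Finset.sum_const, Finset.card_univ, nsmul_eq_mul,
    Nat.card_eq_fintype_card (α := V)]

end count

section val

variable [Fintype Y]

open Classical in
/-- extension by zero -/
noncomputable def ex (P : Subgroup Y) (θ : ↥P →* ℂˣ) (y : Y) : ℂ := if hy : y ∈ P then ((θ ⟨y, hy⟩ : ℂˣ) : ℂ) else 0

omit [Fintype Y] in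
theorem ex_of {P : Subgroup Y} {θ : ↥P →* ℂˣ} {y : Y} (hy : y ∈ P) : ex P θ y = ((θ ⟨y, hy⟩ : ℂˣ) : ℂ) := by
  rw [ex, dif_pos hy]

omit [Fintype Y] in
theorem ex_not {P : Subgroup Y} {θ : ↥P →* ℂˣ} {y : Y} (hy : y ∉ P) : ex P θ y = 0 := by
  rw [ex, dif_neg hy]

omit [Fintype Y] in
theorem ex_conj {P : Subgroup Y} {θ : ↥P →* ℂˣ} {p : Y} (hp : p ∈ P) (y : Y) : ex P θ (p * y * p⁻¹) = ex P θ y := by
  by_cases hy : y ∈ P
  · rw [ex_of hy, ex_of (mul_mem (mul_mem hp hy) (inv_mem hp))]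
    have h1 : (⟨p * y * p⁻¹, mul_mem (mul_mem hp hy) (inv_mem hp)⟩ : P) = ⟨p, hp⟩ * ⟨y, hy⟩ * ⟨p, hp⟩⁻¹ := rfl
    rw [h1, map_mul, map_mul, map_inv, mul_comm (θ ⟨p, hp⟩), mul_inv_cancel_right]
  · rw [ex_not hy, ex_not]
    intro h1
    apply hy
    have h2 := mul_mem (mul_mem (inv_mem hp) h1) hp
    have e : p⁻¹ * (p * y * p⁻¹) * p = y := by group
    rwa [e] at h2

local notation "𝐏" => PJ cs h T X {i | i ≠ j}
local notation "𝐕" => VJ cs h X {i | i ≠ j}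

open Classical in
include R in
/-- the sum over a coset of `V` -/
theorem sum_V [Fact r.Prime] (θ : ↥(PJ cs h T X {i | i ≠ j}) →* ℂˣ)
    (hθ : ∀ (y : Y) (hy : y ∈ PJ cs h T X {i | i ≠ j}), (∃ a : ℕ, y ^ r ^ a = 1) → θ ⟨y, hy⟩ = 1)
    {z : Y} (hzT : z ∈ T) (hzL : ∀ g ∈ LJ cs h T X {i | i ≠ j}, g * z = z * g)
    (hzV : ∀ v ∈ VJ cs h X {i | i ≠ j}, v * z = z * v → v = 1) {w : W} {k : Y} (hk : Rp cs R.nsys w k)
    {p l v₀ : Y} (hp : p ∈ PJ cs h T X {i | i ≠ j}) (hl : l ∈ LJ cs h T X {i | i ≠ j})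
    (hv₀ : v₀ ∈ VJ cs h X {i | i ≠ j}) :
    ∑ v : VJ cs h X {i | i ≠ j}, ex _ θ ((p * k * l * v₀ * v) * z * (p * k * l * v₀ * v)⁻¹) =
      ex _ θ (k * z * k⁻¹) * (vk cs h T X j k : ℂ) := by
  classical
  have hVP : 𝐕 ≤ 𝐏 := VJ_le_PJ
  have hzP : z ∈ 𝐏 := T_le_PJ R _ hzT
  have hnor : ∀ g ∈ 𝐏, ∀ v ∈ 𝐕, g * v * g⁻¹ ∈ 𝐕 := fun g hg v hv =>
    (Subgroup.mem_normalizer_iff.1 (PJ_le_normalizer_VJ R _ hg) v).1 hv
  have hlP : l ∈ 𝐏 := LJ_le_PJ hl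
  -- the bijection
  have hmem : ∀ v : 𝐕, z⁻¹ * (l * (v₀ * v) * l⁻¹) * z * (l * (v₀ * v) * l⁻¹)⁻¹ ∈ 𝐕 := by
    intro v
    have h1 : l * (v₀ * v) * l⁻¹ ∈ 𝐕 := hnor l hlP _ (mul_mem hv₀ v.2)
    have h2 := hnor z⁻¹ (inv_mem hzP) _ h1
    rw [inv_inv] at h2
    exact mul_mem h2 (inv_mem h1)
  let β : 𝐕 → 𝐕 := fun v => ⟨z⁻¹ * (l * (v₀ * v) * l⁻¹) * z * (l * (v₀ * v) * l⁻¹)⁻¹, hmem v⟩
  have hβ : Function.Injective β := by
    intro v v' hvv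
    have h1 : z⁻¹ * (l * (v₀ * v) * l⁻¹) * z * (l * (v₀ * v) * l⁻¹)⁻¹ =
        z⁻¹ * (l * (v₀ * v') * l⁻¹) * z * (l * (v₀ * v') * l⁻¹)⁻¹ := congrArg Subtype.val hvv
    set a := l * (v₀ * (v : Y)) * l⁻¹ with ha
    set b := l * (v₀ * (v' : Y)) * l⁻¹ with hb
    have haV : a ∈ 𝐕 := hnor l hlP _ (mul_mem hv₀ v.2)
    have hbV : b ∈ 𝐕 := hnor l hlP _ (mul_mem hv₀ v'.2)
    have h2 : b⁻¹ * a = 1 := by
      refine hzV _ (mul_mem (inv_mem hbV) haV) ?_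
      have h3 : z⁻¹ * a * z = z⁻¹ * b * z * b⁻¹ * a := by
        rw [← h1]; group
      have h4 : a * z = b * z * b⁻¹ * a := by
        have := congrArg (fun y => z * y) h3
        simpa [mul_assoc] using this
      calc b⁻¹ * a * z = b⁻¹ * (a * z) := by group
        _ = b⁻¹ * (b * z * b⁻¹ * a) := by rw [h4]
        _ = z * (b⁻¹ * a) := by group
    have h3 : a = b := (inv_mul_eq_one.1 h2).symm
    apply Subtype.ext
    rw [ha, hb] at h3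
    exact mul_left_cancel (mul_left_cancel (mul_right_cancel h3))
  have hβb : Function.Bijective β := Finite.injective_iff_bijective.1 hβ
  have hVr : IsPGroup r ↥𝐕 := (R.isPGroup_Upos).to_le (VJ_le_U _)
  have hkz : k * z * k⁻¹ ∈ 𝐏 := T_le_PJ R _ ((Subgroup.mem_normalizer_iff.1 hk.mem_normalizer z).1 hzT)
  -- the terms
  have hterm : ∀ v : 𝐕, ex 𝐏 θ ((p * k * l * v₀ * v) * z * (p * k * l * v₀ * v)⁻¹) =
      ex 𝐏 θ (k * z * k⁻¹) * (if k * ((β v : 𝐕) : Y) * k⁻¹ ∈ 𝐏 then (1 : ℂ) else 0) := by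
    intro v
    set a := l * (v₀ * (v : Y)) * l⁻¹ with ha
    have e1 : (p * k * l * v₀ * v) * z * (p * k * l * v₀ * v)⁻¹ =
        p * (k * z * k⁻¹ * (k * ((β v : 𝐕) : Y) * k⁻¹)) * p⁻¹ := by
      have h1 : z * l⁻¹ = l⁻¹ * z := (hzL _ (inv_mem hl)).symm
      have e2 : ((β v : 𝐕) : Y) = z⁻¹ * a * z * a⁻¹ := rfl
      rw [e2]
      calc (p * k * l * v₀ * v) * z * (p * k * l * v₀ * v)⁻¹
          = p * k * (l * (v₀ * v)) * (z * (l⁻¹ * l)) * (l * (v₀ * v))⁻¹ * k⁻¹ * p⁻¹ := by group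
        _ = p * k * (l * (v₀ * v)) * (z * l⁻¹ * l) * (l * (v₀ * v))⁻¹ * k⁻¹ * p⁻¹ := by group
        _ = p * k * (l * (v₀ * v)) * (l⁻¹ * z * l) * (l * (v₀ * v))⁻¹ * k⁻¹ * p⁻¹ := by rw [h1]
        _ = p * (k * z * k⁻¹ * (k * (z⁻¹ * a * z * a⁻¹) * k⁻¹)) * p⁻¹ := by rw [ha]; group
    rw [e1, ex_conj hp]
    by_cases hb : k * ((β v : 𝐕) : Y) * k⁻¹ ∈ 𝐏
    · rw [if_pos hb, mul_one, ex_of (mul_mem hkz hb), ex_of hkz]
      have h2 : (⟨k * z * k⁻¹ * (k * ((β v : 𝐕) : Y) * k⁻¹), mul_mem hkz hb⟩ : 𝐏) = ⟨_, hkz⟩ * ⟨_, hb⟩ := rfl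
      rw [h2, map_mul]
      have h3 : θ ⟨_, hb⟩ = 1 := by
        apply hθ
        obtain ⟨c, hc⟩ := hVr (β v)
        refine ⟨c, ?_⟩
        have h4 : ((β v : 𝐕) : Y) ^ r ^ c = 1 := congrArg Subtype.val hc
        rw [conj_pow, h4, mul_one, mul_inv_cancel]
      rw [h3, mul_one]
    · rw [if_neg hb, mul_zero, ex_not]
      intro h2
      exact hb ((Subgroup.mul_mem_cancel_left 𝐏 hkz).1 h2)
  rw [Finset.sum_congr rfl fun v _ => hterm v, ← Finset.mul_sum]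
  congr 1
  rw [hβb.sum_comp (fun v : 𝐕 => if k * (v : Y) * k⁻¹ ∈ 𝐏 then (1 : ℂ) else 0), vk]
  push_cast
  exact Finset.sum_congr rfl fun v _ => by split_ifs <;> simp

omit [Finite W] [Fintype Y] [Fintype I] in
/-- sums over the states of functions of the class -/
theorem sum_kk (D : Data A j N m) (x : ℕ) (f : Fin m → ℚ) :
    ∑ s, ((x ^ D.wl s : ℕ) : ℚ) * f (D.t.cls s) = ∑ c, ev x (D.kk c) * f c := by
  rw [← Finset.sum_fiberwise (s := Finset.univ) (g := fun s => D.t.cls s)]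
  refine Finset.sum_congr rfl fun c _ => ?_
  rw [← ChkK.spec (x : ℚ) D.chkK c, Finset.sum_mul]
  refine Finset.sum_congr rfl fun s hs => ?_
  rw [(Finset.mem_filter.1 hs).2]
  push_cast
  rfl

/-- the sum over the group of a function of the class of the state -/
theorem sum_cls (D : Data A j N m) {x : ℕ} (hq : ∀ i, Nat.card (X (sr i)) = x ^ D.e i) (f : Fin m → ℚ) :
    ∑ g, f (D.t.cls (stY R hG D.t g)) = Nat.card 𝐏 * ∑ c, ev x (D.kk c) * f c := by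
  rw [sum_stY R hG D.t (fun s => f (D.t.cls s))]
  have h1 : ∀ s, cnt R hG D.t s = ((x ^ D.wl s : ℕ) : ℚ) * Nat.card 𝐏 := by
    intro s
    rw [cnt_eq R hG D.t (fun i => x ^ D.e i) hq (fun s => x ^ D.wl s) (by rw [D.wo, pow_zero])
      (fun i s hs => by rw [D.ws i s hs, pow_add]) s, cnt_o]
  rw [← sum_kk, Finset.mul_sum]
  refine Finset.sum_congr rfl fun s _ => ?_
  rw [h1]
  ring

open Classical in
include hG in
/-- **The sum over the conjugates.** -/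
theorem sum_conj [Fact r.Prime] (D : Data A j N m) {x : ℕ} (hx : x ≠ 0)
    (hq : ∀ i, Nat.card (X (sr i)) = x ^ D.e i) (θ : ↥𝐏 →* ℂˣ)
    (hθ : ∀ (y : Y) (hy : y ∈ 𝐏), (∃ a : ℕ, y ^ r ^ a = 1) → θ ⟨y, hy⟩ = 1)
    {z : Y} (hzT : z ∈ T) (hzL : ∀ g ∈ LJ cs h T X {i | i ≠ j}, g * z = z * g)
    (hzV : ∀ v ∈ 𝐕, v * z = z * v → v = 1) (w : Fin m → W) (hw1 : ∀ c, D.t.cls (D.t.sw cs h (w c)) = c)
    (hw2 : ∀ c i, i ≠ j → 0 ≤ D.t.vec (D.t.sw cs h (w c)) i) (ε : Fin m → ℚ)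
    (hε : ∀ c k, Rp cs R.nsys (w c) k → ex 𝐏 θ (k * z * k⁻¹) = (ε c : ℂ)) :
    ∑ g, ex 𝐏 θ (g * z * g⁻¹) =
      (Nat.card 𝐏 : ℂ) * ((∑ c, ev x (D.kk c) * (ε c / (x : ℚ) ^ D.wl (D.t.sw cs h (w c))) : ℚ) : ℂ) := by
  choose k hk using fun c => exists_rp cs R.nsys (w c)
  have hx' : (x : ℚ) ≠ 0 := Nat.cast_ne_zero.2 hx
  have hV0 : (Nat.card 𝐕 : ℚ) ≠ 0 := Nat.cast_ne_zero.2 Nat.card_pos.ne'
  have hP0 : (Nat.card 𝐏 : ℚ) ≠ 0 := Nat.cast_ne_zero.2 Nat.card_pos.ne'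
  have hvk : ∀ c, vk cs h T X j (k c) = Nat.card 𝐕 * (1 / (x : ℚ) ^ D.wl (D.t.sw cs h (w c))) := by
    intro c
    have h1 := cnt_mul_vk R hG D.t (hk c) (fun i hi => by rw [← Tab.vec_sw cs h D.t]; exact hw2 c i hi)
    rw [cnt_eq R hG D.t (fun i => x ^ D.e i) hq (fun s => x ^ D.wl s) (by rw [D.wo, pow_zero])
      (fun i s hs => by rw [D.ws i s hs, pow_add]) _, cnt_o] at h1
    push_cast at h1
    field_simp
    have h2 : (Nat.card 𝐏 : ℚ) * ((x : ℚ) ^ D.wl (D.t.sw cs h (w c)) * vk cs h T X j (k c)) =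
        (Nat.card 𝐏 : ℚ) * Nat.card 𝐕 := by
      linear_combination h1
    have h3 := mul_left_cancel₀ hP0 h2
    linear_combination h3
  -- the sum over a coset
  have h1 : ∀ g : Y, ∑ v : 𝐕, ex 𝐏 θ ((g * v) * z * (g * v)⁻¹) =
      ((Nat.card 𝐕 * (ε (D.t.cls (stY R hG D.t g)) /
        (x : ℚ) ^ D.wl (D.t.sw cs h (w (D.t.cls (stY R hG D.t g))))) : ℚ) : ℂ) := by
    intro g
    set c := D.t.cls (stY R hG D.t g) with hc
    obtain ⟨p, hp, l, hl, v₀, hv₀, e⟩ := exists_PkLV R hG D.t (hk c) (g := g) (by rw [hw1])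
    have h2 := sum_V R θ hθ hzT hzL hzV (hk c) hp hl hv₀
    rw [hε c _ (hk c), hvk] at h2
    have h3 : ∑ v : 𝐕, ex 𝐏 θ ((g * v) * z * (g * v)⁻¹) =
        ∑ v : 𝐕, ex 𝐏 θ ((p * k c * l * v₀ * v) * z * (p * k c * l * v₀ * v)⁻¹) :=
      Finset.sum_congr rfl fun v _ => by rw [← e]
    rw [h3, h2]
    push_cast
    ring
  have h2 : ((Nat.card 𝐕 : ℚ) : ℂ) * ∑ g, ex 𝐏 θ (g * z * g⁻¹) = ((Nat.card 𝐕 : ℚ) : ℂ) * ((Nat.card 𝐏 : ℂ) *
      ((∑ c, ev x (D.kk c) * (ε c / (x : ℚ) ^ D.wl (D.t.sw cs h (w c))) : ℚ) : ℂ)) := by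
    have h3 : ∑ v : 𝐕, ∑ g : Y, ex 𝐏 θ ((g * v) * z * (g * v)⁻¹) = ((Nat.card 𝐕 : ℚ) : ℂ) * ∑ g, ex 𝐏 θ (g * z * g⁻¹) := by
      have h4 : ∀ v : 𝐕, ∑ g : Y, ex 𝐏 θ ((g * v) * z * (g * v)⁻¹) = ∑ g, ex 𝐏 θ (g * z * g⁻¹) := fun v =>
        Fintype.sum_equiv (Equiv.mulRight (v : Y)) _ _ fun g => rfl
      rw [Finset.sum_congr rfl fun v _ => h4 v, Finset.sum_const, Finset.card_univ, nsmul_eq_mul,
        Nat.card_eq_fintype_card (α := 𝐕)]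
      push_cast
      rfl
    rw [← h3, Finset.sum_comm, Finset.sum_congr rfl fun g _ => h1 g]
    have h5 := sum_cls R hG D hq fun c => (ε c / (x : ℚ) ^ D.wl (D.t.sw cs h (w c)))
    have h6 : (∑ g : Y, ((Nat.card 𝐕 * (ε (D.t.cls (stY R hG D.t g)) /
        (x : ℚ) ^ D.wl (D.t.sw cs h (w (D.t.cls (stY R hG D.t g))))) : ℚ) : ℂ)) =
        ((Nat.card 𝐕 * ∑ g : Y, (ε (D.t.cls (stY R hG D.t g)) /
        (x : ℚ) ^ D.wl (D.t.sw cs h (w (D.t.cls (stY R hG D.t g))))) : ℚ) : ℂ) := by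
      rw [Finset.mul_sum]
      push_cast
      rfl
    rw [h6, h5]
    push_cast
    ring
  refine mul_left_cancel₀ ?_ h2
  exact_mod_cast hV0

end val

end Cfsg.Agent.H526.PQ
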