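import Cfsg.Agent.H292.S38.Tor
import Cfsg.Agent.H115.HC.TwoLin

/-!
# Linear characters of the parabolic subgroups (helper526, for S4612)

`T_inf_MJ_le` : `T ∩ M_J ≤ ⨆ i ∈ J, T ∩ ⟨X_i, X_{-i}⟩`;
`exists_ext` : a linear character of `T` trivial on the `T ∩ ⟨X_i, X_{-i}⟩`, `i ∈ J`, extends to `P_J`.
-/

set_option autoImplicit false
set_option linter.unusedSectionVars false

namespace Cfsg.Agent.H526.PQ

open Cfsg CoxeterSystem Cfsg.Agent.ChevalleyStructure.CoxeterGeom Cfsg.Agent.Tits.Roots Cfsg.Agent.Tits.Core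
  Cfsg.Agent.Tits.Exchange Cfsg.Agent.Nodes.Comb Cfsg.Agent.Nodes.Reps Cfsg.Agent.Nodes.BNOf
  Cfsg.Agent.Nodes.StabComb Cfsg.Agent.Nodes.Bruhat Cfsg.Agent.Nodes.NormalForm Cfsg.Agent.Nodes.OppDec
  Cfsg.Agent.Nodes.LeviDec
  Cfsg.Agent.Nodes.FreeTorus Cfsg.Agent.Nodes.SubComb Cfsg.Agent.Nodes.Sub Cfsg.Agent.Nodes.ClsSub
  Cfsg.Agent.H53.HC Cfsg.Agent.H292.S38.Tor

variable {I W Y : Type*} [Fintype I] [DecidableEq I] [Group W] [Group Y] {M : CoxeterMatrix I}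
  {cs : CoxeterSystem M W} {A : I → I → ℤ} {h : IsCartan M A} {p : ℕ} {T : Subgroup Y} {n : I → Y}
  {X : (I → ℤ) → Subgroup Y}

/-- **The torus of `M_J`.** -/
theorem T_inf_MJ_le [Finite W] (R : RGD cs h p T n X) {J : Set I} (hn : ∀ i ∈ J, n i ∈ LL X (sr i)) :
    T ⊓ MJ cs h X J ≤ ⨆ i : J, T ⊓ LL X (sr i.1) := by
  classical
  let f : J ↪ I := Function.Embedding.subtype _
  have hf : Set.range f = J := Subtype.range_coe
  let cs' : CoxeterSystem (leviMatrix f M) (leviMatrix f M).Group := (leviMatrix f M).toCoxeterSystem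
  have hW' : Finite (leviMatrix f M).Group := (levi_subSys (cs := cs) (h := h) f).finite cs' (levi_isCartan f h)
  have hi : ∀ j : J, iota (fun j : J => sr (f j)) (sr j) = sr (f j) := fun j => iota_sr _ j
  have := Fintype.ofFinite W
  have := Fintype.ofFinite (leviMatrix f M).Group
  have hR : ∀ {x : I → ℤ}, x ∈ RootsJ cs h J ↔ ∃ c, IsRoot cs' (levi_isCartan f h) c ∧
      x = iota (fun j => sr (f j)) c := by
    intro x
    rw [← mem_RootsJ_range_iff (cs := cs) (h := h) f cs', hf]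
  have e : TS T (fun c => X (iota (fun j : J => sr (f j)) c)) = ⨆ i : J, T ⊓ LL X (sr i.1) := by
    unfold TS LL
    refine iSup_congr fun j => ?_
    beta_reduce
    rw [map_neg, hi]
    rfl
  have hn' : ∀ j : J, n (f j) ∈ LL (fun c => X (iota (fun j : J => sr (f j)) c)) (sr j) := by
    intro j
    unfold LL
    beta_reduce
    rw [map_neg, hi]
    exact hn _ j.2
  have R' := rgd_levi R f cs'
  rw [← e]
  intro t ht
  obtain ⟨ht1, ht2⟩ := Subgroup.mem_inf.1 ht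
  refine HH_inf_GG_le (rgd_small R' hn') (Subgroup.mem_inf.2 ⟨T_le_HH R' ht1, (le_sup_right : _ ≤ GG cs'
    (levi_isCartan f h) (TS T (fun c => X (iota (fun j : J => sr (f j)) c)))
      (fun c => X (iota (fun j : J => sr (f j)) c))) ?_⟩)
  refine (?_ : MJ cs h X J ≤ _) ht2
  refine RGD.Sup_le fun x hx => ?_
  obtain ⟨c, hc', rfl⟩ := hR.1 hx
  exact RGD.le_Sup (X := fun c => X (iota (fun j : J => sr (f j)) c)) (S := {x | IsRoot cs' (levi_isCartan f h) x})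
    hc'

/-- **Extension of linear characters of `T` to `P_J`.** -/
theorem exists_ext_PJ [Finite W] (R : RGD cs h p T n X) (J : Set I) (θ : T →* ℂˣ)
    (hθ : ∀ (t : Y) (ht : t ∈ T), t ∈ MJ cs h X J → θ ⟨t, ht⟩ = 1) :
    ∃ f : ↥(PJ cs h T X J) →* ℂˣ, (∀ (t : Y) (ht : t ∈ T), f ⟨t, (RGD.T_le_B.trans B_le_PJ) ht⟩ = θ ⟨t, ht⟩) ∧
      (∀ (m : Y) (hm : m ∈ MJ cs h X J), f ⟨m, LJ_le_PJ (MJ_le_LJ _ hm)⟩ = 1) ∧
      ∀ (v : Y) (hv : v ∈ VJ cs h X J), f ⟨v, VJ_le_PJ hv⟩ = 1 := by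
  obtain ⟨π, hπ1, hπ2⟩ := exists_projL R J
  let N := (MJ cs h X J).subgroupOf (LJ cs h T X J)
  have hN : N.Normal := (Subgroup.normal_subgroupOf_iff_le_normalizer (MJ_le_LJ _)).2 (LJ_le_normalizer_MJ R _)
  let g : T →* ↥(LJ cs h T X J) ⧸ N := (QuotientGroup.mk' N).comp (Subgroup.inclusion T_le_LJ)
  have hsurj : Function.Surjective g := by
    intro q
    obtain ⟨⟨l, hl⟩, rfl⟩ := QuotientGroup.mk'_surjective N q
    obtain ⟨t, ht, m, hm, rfl⟩ := (mem_LJ_iff_mul R _).1 hl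
    refine ⟨⟨t, ht⟩, ?_⟩
    refine (QuotientGroup.eq (s := N)).2 ?_
    rw [Subgroup.mem_subgroupOf]
    have e : ((((Subgroup.inclusion (T_le_LJ (cs := cs) (h := h) (T := T) (X := X) (J := J)) ⟨t, ht⟩)⁻¹ *
      ⟨t * m, hl⟩ : ↥(LJ cs h T X J))) : Y) = m := by
      change t⁻¹ * (t * m) = m
      group
    rw [e]
    exact hm
  have hker : g.ker ≤ θ.ker := by
    rintro ⟨t, ht⟩ h1
    rw [MonoidHom.mem_ker] at h1 ⊢
    refine hθ t ht ?_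
    have h2 := (QuotientGroup.eq_one_iff _).1 h1
    rw [Subgroup.mem_subgroupOf] at h2
    exact h2
  let e := QuotientGroup.quotientKerEquivOfSurjective g hsurj
  let θ' : T ⧸ g.ker →* ℂˣ := QuotientGroup.lift g.ker θ hker
  let fL : ↥(LJ cs h T X J) →* ℂˣ := θ'.comp (e.symm.toMonoidHom.comp (QuotientGroup.mk' N))
  have hfT : ∀ (t : Y) (ht : t ∈ T), fL ⟨t, T_le_LJ ht⟩ = θ ⟨t, ht⟩ := by
    intro t ht
    have h1 : e.symm (QuotientGroup.mk' N ⟨t, T_le_LJ ht⟩) = QuotientGroup.mk (⟨t, ht⟩ : T) := by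
      rw [MulEquiv.symm_apply_eq]
      rfl
    change θ' (e.symm (QuotientGroup.mk' N ⟨t, T_le_LJ ht⟩)) = _
    rw [h1]
    rfl
  have hfM : ∀ (m : Y) (hm : m ∈ MJ cs h X J), fL ⟨m, MJ_le_LJ _ hm⟩ = 1 := by
    intro m hm
    have h1 : QuotientGroup.mk' N ⟨m, MJ_le_LJ _ hm⟩ = 1 := by
      refine (QuotientGroup.eq_one_iff _).2 ?_
      rw [Subgroup.mem_subgroupOf]
      exact hm
    change θ' (e.symm (QuotientGroup.mk' N ⟨m, MJ_le_LJ _ hm⟩)) = 1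
    rw [h1, map_one, map_one]
  refine ⟨fL.comp π, fun t ht => ?_, fun m hm => ?_, fun v hv => ?_⟩
  · rw [MonoidHom.comp_apply, hπ1 t (T_le_LJ ht), hfT]
  · rw [MonoidHom.comp_apply, hπ1 m (MJ_le_LJ _ hm), hfM m hm]
  · rw [MonoidHom.comp_apply, hπ2 v hv, map_one]

/-- **Extension of linear characters of `T` to `P_J`**, if they are trivial on the rank one tori of `J`. -/
theorem exists_ext [Finite W] (R : RGD cs h p T n X) {J : Set I} (hn : ∀ i ∈ J, n i ∈ LL X (sr i)) (θ : T →* ℂˣ)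
    (hθ : ∀ i ∈ J, ∀ (t : Y) (ht : t ∈ T), t ∈ LL X (sr i) → θ ⟨t, ht⟩ = 1) :
    ∃ f : ↥(PJ cs h T X J) →* ℂˣ, (∀ (t : Y) (ht : t ∈ T), f ⟨t, (RGD.T_le_B.trans B_le_PJ) ht⟩ = θ ⟨t, ht⟩) ∧
      (∀ (m : Y) (hm : m ∈ MJ cs h X J), f ⟨m, LJ_le_PJ (MJ_le_LJ _ hm)⟩ = 1) ∧
      ∀ (v : Y) (hv : v ∈ VJ cs h X J), f ⟨v, VJ_le_PJ hv⟩ = 1 := by
  refine exists_ext_PJ R J θ fun t ht hm => ?_
  have h1 : (⨆ i : J, T ⊓ LL X (sr i.1)) ≤ θ.ker.map T.subtype := by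
    refine iSup_le fun i t ht => ?_
    obtain ⟨h1, h2⟩ := Subgroup.mem_inf.1 ht
    exact ⟨⟨t, h1⟩, hθ i i.2 t h1 h2, rfl⟩
  obtain ⟨⟨t', ht'⟩, h2, h3⟩ := h1 (T_inf_MJ_le R hn (Subgroup.mem_inf.2 ⟨ht, hm⟩))
  have h4 : (⟨t', ht'⟩ : T) = ⟨t, ht⟩ := Subtype.ext h3
  rw [← h4]
  exact h2

end Cfsg.Agent.H526.PQ
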