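import Cfsg.Agent.H632.PQ.Mackey
import Cfsg.Agent.H241.PQ.CenSplit
import Cfsg.Agent.H317.PQ.Exc
import Cfsg.Agent.H526.Van.Chev
import Cfsg.Agent.KFacts.RgdChevCoord
import Cfsg.Agent.FixBN.ChevGood

/-!
# S4612, linear characters of the Chevalley groups (helper526)

`lin_F4`, `lin_E6`, `lin_E7`, `lin_E8`, `linTwo_F4`, ... : the primes dividing `q - 1`.
-/

set_option autoImplicit false
set_option linter.unusedSectionVars false

open Cfsg

namespace Cfsg.Agent.H526.PQ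

open Cfsg.Lie Cfsg.Agent.ChevalleyStructure Cfsg.Agent.ChevalleyStructure.Elts
  Cfsg.Agent.ChevalleyStructure.RootVec Cfsg.Agent.ChevalleyStructure.RootVecTab
  Cfsg.Agent.ChevalleyStructure.NPerm Cfsg.Agent.ChevalleyStructure.CoxeterGeomTypes
open Cfsg.Agent.Nodes Cfsg.Agent.Nodes.RGDChev Cfsg.Agent.H35.ExcIdx
open CoxeterSystem Cfsg.Agent.ChevalleyStructure.CoxeterGeom Cfsg.Agent.Tits.Roots Cfsg.Agent.Tits.Core
  Cfsg.Agent.Tits.Exchange Cfsg.Agent.Nodes.Reps Cfsg.Agent.Nodes.BNOf Cfsg.Agent.Nodes.StabComb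
  Cfsg.Agent.Nodes.Bruhat Cfsg.Agent.Nodes.OppDec Cfsg.Agent.Nodes.LeviDec
open Cfsg.Agent.H317.PQ Cfsg.Agent.H996.PQ Cfsg.Agent.H632.PQ Cfsg.Agent.H526.Van
open Cfsg.Agent.KFacts.RgdField

universe u

/-- for every root `r ≠ s` some simple coroot has values on `s`, `r` with difference `±1`, `±2` -/
def ChkDiff (D : ChevalleyDatum) (s : ℕ) : Bool :=
  (List.range D.nroots).all fun r => decide (r = s) ||
    (List.range D.rank).any fun j => decide ((D.cartan j s - D.cartan j r).natAbs = 1) ||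
      decide ((D.cartan j s - D.cartan j r).natAbs = 2)

/-- `tor c` centralises the roots with `j₀`-th coordinate zero, and acts on `s` with exponent 2 -/
def ChkCen (D : ChevalleyDatum) (c : List ℤ) (j₀ s : ℕ) : Bool :=
  decide (expo D (fun i => c.getD i 0) s = 2) &&
    (List.range D.nroots).all fun r => decide (rt D r j₀ = 0 → expo D (fun i => c.getD i 0) r = 0)

variable {D : ChevalleyDatum} {l : ℕ} {M : CoxeterMatrix (Fin l)} (hp : IsType D l M) {K : Type u} [Field K]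

include hp in
/-- **the split groups**: `c` of order `p` (`p` odd) or of order `4` (`p = 2`) -/
theorem not_same_split [Fintype K] {s : ℕ} (hs : s < D.nroots)
    (hD : ∀ r < D.nroots, r ≠ s → (∀ i, 0 ≤ vec D l r i) → D.commTerms r s = []) {j₀ : Fin l} {Dl : Fin l → ℤ}
    (hi : Hi (cartanOf D l) j₀ (vec D l s) Dl) (h1 : ChkDiff D s = true) {c : List ℤ} (h2 : ChkCen D c j₀ s = true)
    (r : ℕ) [hrf : Fact r.Prime] [CharP K r] {p q : ℕ} (hpp : p.Prime) (hq : q.Prime) (hpq : p ≠ q) (hrq : r ≠ q)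
    {t : Kˣ} (ht1 : p ∣ orderOf t) (ht2 : p ∣ orderOf (t ^ 2)) : ¬ Same p q ↥(D.group K) := by
  classical
  have hW : Finite M.Group := finite_W hp M.toCoxeterSystem
  have : Finite ↥(D.group K) := H53.HC.ExcRows.finite_group (K := K) D
  have hfin : Finite K := inferInstance
  set cs := M.toCoxeterSystem with hcs
  have R := rgd (K := K) hp cs r
  have C := KFacts.RgdChevCoord.coords (K := K) hp cs r
  have hr0 : IsRoot cs hp.isCartan (vec D l s) := isRoot_vec hp cs hs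
  have hc0 := C.coord _ hr0
  have hord : ∀ d : ℤ, d.natAbs = 1 ∨ d.natAbs = 2 → p ∣ orderOf ((t ^ d : Kˣ)) := by
    intro d hd
    rcases Int.natAbs_eq d with h3 | h3
    · rcases hd with h4 | h4
      · rw [h3, h4, zpow_natCast, pow_one]; exact ht1
      · rw [h3, h4, zpow_natCast]; exact ht2
    · rcases hd with h4 | h4
      · rw [h3, h4, zpow_neg, orderOf_inv, zpow_natCast, pow_one]; exact ht1
      · rw [h3, h4, zpow_neg, orderOf_inv, zpow_natCast]; exact ht2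
  refine not_same_of_rgd' (F := K) (x := KFacts.RgdChevCoord.xc hp (vec D l s))
    (χ := KFacts.RgdChevCoord.ch hp (vec D l s)) R hpp hq hpq hrq (GG_eq_top hp K cs) hi
    (H241.PQ.cen_split hp K cs hs hD hi.nonneg) hr0 (fun a => (hc0.mem _).2 ⟨a, rfl⟩) hc0.inj hc0.act ?_
    (z := torG hp (fun i => c.getD i 0) t) (torG_mem hp _ t) ?_ ?_ ?_
  · -- the torus elements
    intro w hw k hk
    obtain ⟨ρ, hρ, e⟩ := (isRoot_iff hp cs _).1 (hr0.act w)
    have hρs : ρ ≠ s := by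
      rintro rfl
      exact hw e.symm
    have h3 := List.all_eq_true.1 h1 ρ (List.mem_range.2 hρ)
    rw [Bool.or_eq_true, decide_eq_true_eq, or_iff_right hρs, List.any_eq_true] at h3
    obtain ⟨j, hj, h4⟩ := h3
    rw [Bool.or_eq_true, decide_eq_true_eq, decide_eq_true_eq] at h4
    have hjl : j < l := by rw [← hp.rank_eq]; exact List.mem_range.1 hj
    have hu0 : ((t : Kˣ) : K) ≠ 0 := t.ne_zero
    have hmem := KFacts.RgdChevCoord.hc_mem hp (K := K) ⟨j, hjl⟩ hu0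
    refine ⟨KFacts.RgdChevCoord.hc hp ⟨j, hjl⟩ (t : K), hmem, ?_⟩
    have h5 : KFacts.RgdChevCoord.ch hp (vec D l s) (k⁻¹ * KFacts.RgdChevCoord.hc hp ⟨j, hjl⟩ (t : K) * k) =
        KFacts.RgdChevCoord.ch hp (vec D l ρ) (KFacts.RgdChevCoord.hc hp ⟨j, hjl⟩ (t : K)) := by
      have h6 := C.chi_rp R.nsys hk hr0 (conj_mem_T R hk hmem)
      rw [← e] at h6
      rw [← h6]
      congr 1
      group
    rw [h5, KFacts.RgdChevCoord.ch_hc hp _ hu0 hs, KFacts.RgdChevCoord.ch_hc hp _ hu0 hρ]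
    have h6 : (t : K) ^ D.cartan j s / (t : K) ^ D.cartan j ρ = (((t ^ (D.cartan j s - D.cartan j ρ) : Kˣ)) : K) := by
      rw [zpow_sub, Units.val_mul, Units.val_zpow_eq_zpow_val, Units.val_inv_eq_inv_val, Units.val_zpow_eq_zpow_val,
        div_eq_mul_inv]
    rw [show ((⟨j, hjl⟩ : Fin l) : ℕ) = j from rfl, h6, orderOf_units]
    exact hord _ h4
  · intro x hx
    exact Subtype.ext (FixBN.ChevGood.diag_comm K hp hx (torG_mem hp (fun i => c.getD i 0) t))
  · intro y hy hy0 a ha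
    obtain ⟨ρ, hρ, rfl⟩ := (isRoot_iff hp cs y).1 hy
    have ha' : (a : GL D.Idx K) ∈ D.rootSubgroup K ρ := by
      rw [← XV_vec hp K hρ]
      exact ha
    obtain ⟨b, hb⟩ := (mem_rootSubgroup_iff hp.inList ρ _).1 ha'
    have h3 := (Bool.and_eq_true _ _ ▸ h2).2
    have h4 := of_decide_eq_true (List.all_eq_true.1 h3 ρ (List.mem_range.2 hρ)) hy0
    apply Subtype.ext
    have h5 := tor_mul_xG (K := K) hp.inList (fun i => c.getD i 0) t hρ b
    rw [h4, zpow_zero, Units.val_one, one_mul] at h5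
    rw [Subgroup.coe_mul, Subgroup.coe_mul, hb]
    exact h5.symm
  · -- the scalar of `z`
    have h3 := of_decide_eq_true (Bool.and_eq_true _ _ ▸ h2).1
    have h4 : KFacts.RgdChevCoord.ch hp (vec D l s) (torG hp (fun i => c.getD i 0) t) = ((t ^ (2 : ℤ) : Kˣ) : K) := by
      apply KFacts.RgdChevCoord.ch_eq hp hs (torG_mem hp _ t)
      apply Subtype.ext
      rw [Subgroup.coe_mul, Subgroup.coe_mul, Subgroup.coe_inv, KFacts.RgdChevCoord.coe_xc hp hs,
        KFacts.RgdChevCoord.coe_xc hp hs, mul_inv_eq_iff_eq_mul]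
      have h5 := tor_mul_xG (K := K) hp.inList (fun i => c.getD i 0) t hs 1
      rw [h3, mul_one] at h5
      exact h5
    rw [h4, orderOf_units, zpow_ofNat]
    exact ht2

include hp in
/-- **odd primes dividing `q - 1`** -/
theorem lin_split [Fintype K] {s : ℕ} (hs : s < D.nroots)
    (hD : ∀ r < D.nroots, r ≠ s → (∀ i, 0 ≤ vec D l r i) → D.commTerms r s = []) {j₀ : Fin l} {Dl : Fin l → ℤ}
    (hi : Hi (cartanOf D l) j₀ (vec D l s) Dl) (h1 : ChkDiff D s = true) {c : List ℤ} (h2 : ChkCen D c j₀ s = true) :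
    Lin ↥(D.group K) (Fintype.card K) := by
  intro p q hpp hq hp2 hpq hqr hpq1 _
  obtain ⟨r, hcr⟩ := CharP.exists K
  obtain ⟨f, hr, hK⟩ := FiniteField.card K r
  have hrf : Fact r.Prime := ⟨hr⟩
  have := Fact.mk hpp
  obtain ⟨t, ht⟩ := exists_unit_order (F := K) hpq1
  have hrq : r ≠ q := by
    rintro rfl
    apply hqr
    rw [hK]
    exact dvd_pow_self _ f.pos.ne'
  refine not_same_split hp hs hD hi h1 h2 r hpp hq hpq hrq (t := t) (by rw [ht]) ?_
  rw [orderOf_pow' _ two_ne_zero, ht, Nat.Coprime.gcd_eq_one ((Nat.coprime_primes hpp Nat.prime_two).2 hp2), Nat.div_one]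

include hp in
/-- **`p = 2`, `q ≡ 1 mod 4`** -/
theorem linTwo_split [Fintype K] {s : ℕ} (hs : s < D.nroots)
    (hD : ∀ r < D.nroots, r ≠ s → (∀ i, 0 ≤ vec D l r i) → D.commTerms r s = []) {j₀ : Fin l} {Dl : Fin l → ℤ}
    (hi : Hi (cartanOf D l) j₀ (vec D l s) Dl) (h1 : ChkDiff D s = true) {c : List ℤ} (h2 : ChkCen D c j₀ s = true) :
    LinTwo ↥(D.group K) (Fintype.card K) := by
  intro h4 q hq hq2 hqr _
  obtain ⟨r, hcr⟩ := CharP.exists K
  obtain ⟨f, hr, hK⟩ := FiniteField.card K r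
  have hrf : Fact r.Prime := ⟨hr⟩
  have h5 : 4 ∣ Fintype.card K - 1 := by omega
  obtain ⟨t, ht⟩ := exists_unit_four (F := K) h5
  have hrq : r ≠ q := by
    rintro rfl
    apply hqr
    rw [hK]
    exact dvd_pow_self _ f.pos.ne'
  refine not_same_split hp hs hD hi h1 h2 r Nat.prime_two hq hq2.symm hrq (t := t) (by rw [ht]; norm_num) ?_
  rw [orderOf_pow' _ two_ne_zero, ht]
  norm_num

theorem diff_F4 : ChkDiff chevF4 47 = true := by decide +kernel
theorem diff_E6 : ChkDiff chevE6 71 = true := by decide +kernel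
theorem diff_E7 : ChkDiff chevE7 125 = true := by decide +kernel
theorem diff_E8 : ChkDiff chevE8 239 = true := by decide +kernel

theorem ccen_F4 : ChkCen chevF4 [1, 2, 3, 2] ((3 : Fin 4) : ℕ) 47 = true := by decide +kernel
theorem ccen_E6 : ChkCen chevE6 [1, 2, 2, 3, 2, 1] ((1 : Fin 6) : ℕ) 71 = true := by decide +kernel
theorem ccen_E7 : ChkCen chevE7 [2, 2, 3, 4, 3, 2, 1] ((0 : Fin 7) : ℕ) 125 = true := by decide +kernel
theorem ccen_E8 : ChkCen chevE8 [2, 3, 4, 6, 5, 4, 3, 2] ((7 : Fin 8) : ℕ) 239 = true := by decide +kernel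

variable {F : Type u} [Field F] [Fintype F]

theorem hid_F4 : 47 < chevF4.nroots ∧
    (∀ r < chevF4.nroots, r ≠ 47 → (∀ i, 0 ≤ vec chevF4 4 r i) → chevF4.commTerms r 47 = []) ∧
    Hi (cartanOf chevF4 4) 3 (vec chevF4 4 47) (![1, 1, 2, 2]) :=
  ⟨by decide +kernel, by decide +kernel,
    ⟨by decide +kernel, by decide +kernel, by decide +kernel, by decide +kernel, by decide +kernel⟩⟩

theorem hid_E6 : 71 < chevE6.nroots ∧
    (∀ r < chevE6.nroots, r ≠ 71 → (∀ i, 0 ≤ vec chevE6 6 r i) → chevE6.commTerms r 71 = []) ∧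
    Hi (cartanOf chevE6 6) 1 (vec chevE6 6 71) (fun _ => 1) :=
  ⟨by decide +kernel, by decide +kernel,
    ⟨by decide +kernel, by decide +kernel, by decide +kernel, by decide +kernel, by decide +kernel⟩⟩

theorem hid_E7 : 125 < chevE7.nroots ∧
    (∀ r < chevE7.nroots, r ≠ 125 → (∀ i, 0 ≤ vec chevE7 7 r i) → chevE7.commTerms r 125 = []) ∧
    Hi (cartanOf chevE7 7) 0 (vec chevE7 7 125) (fun _ => 1) :=
  ⟨by decide +kernel, by decide +kernel,
    ⟨by decide +kernel, by decide +kernel, by decide +kernel, by decide +kernel, by decide +kernel⟩⟩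

theorem hid_E8 : 239 < chevE8.nroots ∧
    (∀ r < chevE8.nroots, r ≠ 239 → (∀ i, 0 ≤ vec chevE8 8 r i) → chevE8.commTerms r 239 = []) ∧
    Hi (cartanOf chevE8 8) 7 (vec chevE8 8 239) (fun _ => 1) :=
  ⟨by decide +kernel, by decide +kernel,
    ⟨by decide +kernel, by decide +kernel, by decide +kernel, by decide +kernel, by decide +kernel⟩⟩

/-- `Lin` for `F4(q)` -/
theorem lin_F4 : Lin ↥(chevF4.group F) (Fintype.card F) :=
  lin_split hpF4 hid_F4.1 hid_F4.2.1 hid_F4.2.2 diff_F4 ccen_F4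

/-- `LinTwo` for `F4(q)` -/
theorem linTwo_F4 : LinTwo ↥(chevF4.group F) (Fintype.card F) :=
  linTwo_split hpF4 hid_F4.1 hid_F4.2.1 hid_F4.2.2 diff_F4 ccen_F4

/-- `Lin` for `E6(q)` -/
theorem lin_E6 : Lin ↥(chevE6.group F) (Fintype.card F) :=
  lin_split hpE6 hid_E6.1 hid_E6.2.1 hid_E6.2.2 diff_E6 ccen_E6

/-- `LinTwo` for `E6(q)` -/
theorem linTwo_E6 : LinTwo ↥(chevE6.group F) (Fintype.card F) :=
  linTwo_split hpE6 hid_E6.1 hid_E6.2.1 hid_E6.2.2 diff_E6 ccen_E6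

/-- `Lin` for `E7(q)` -/
theorem lin_E7 : Lin ↥(chevE7.group F) (Fintype.card F) :=
  lin_split hpE7 hid_E7.1 hid_E7.2.1 hid_E7.2.2 diff_E7 ccen_E7

/-- `LinTwo` for `E7(q)` -/
theorem linTwo_E7 : LinTwo ↥(chevE7.group F) (Fintype.card F) :=
  linTwo_split hpE7 hid_E7.1 hid_E7.2.1 hid_E7.2.2 diff_E7 ccen_E7

/-- `Lin` for `E8(q)` -/
theorem lin_E8 : Lin ↥(chevE8.group F) (Fintype.card F) :=
  lin_split hpE8 hid_E8.1 hid_E8.2.1 hid_E8.2.2 diff_E8 ccen_E8

/-- `LinTwo` for `E8(q)` -/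
theorem linTwo_E8 : LinTwo ↥(chevE8.group F) (Fintype.card F) :=
  linTwo_split hpE8 hid_E8.1 hid_E8.2.1 hid_E8.2.2 diff_E8 ccen_E8

end Cfsg.Agent.H526.PQ
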